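import Cfsg.Agent.H446.FC.V7
import Cfsg.Agent.H224.FR.RThree

/-!
# `F₄(q)`: the elements of the group `⟨X₄₅, X₄₆, X₄₇⟩` of order `q³` are long root elements (S2452; helper994)

`lng_E3` : every `1 ≠ e` in `EE K [45, 46, 47]` is conjugate to `xc hF (vec chevF4 4 47) c`, `c ≠ 0`.
-/

set_option autoImplicit false
set_option linter.unusedSectionVars false

namespace Cfsg.Agent.H994.FR

open CoxeterSystem Cfsg.Agent.ChevalleyStructure.CoxeterGeom Cfsg.Agent.Tits.Roots Cfsg.Agent.Tits.Core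
  Cfsg.Agent.Tits.Exchange Cfsg.Agent.Nodes.Reps Cfsg.Agent.Nodes.BNOf Cfsg.Agent.Nodes.StabComb
  Cfsg.Agent.Nodes.Bruhat Cfsg.Agent.Nodes.OppDec Cfsg.Agent.Nodes.LeviDec Cfsg.Agent.Nodes.NormX
  Cfsg.Agent.Nodes.Coroot Cfsg.Agent.Nodes.RGDChev Cfsg.Agent.KFacts.RgdPar Cfsg.Agent.KFacts.RgdTI
  Cfsg.Agent.KFacts.RgdCent Cfsg.Agent.KFacts.RgdChevCoord Cfsg.Agent.Nodes.ChevCls
  Cfsg.Agent.OddHalf.NI.ModelChev Cfsg.Agent.H225.PPow
open Cfsg.Lie Cfsg.Agent.ChevalleyStructure Cfsg.Agent.ChevalleyStructure.Elts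
  Cfsg.Agent.ChevalleyStructure.RootVec Cfsg.Agent.ChevalleyStructure.NPerm
  Cfsg.Agent.ChevalleyStructure.CoxeterGeomTypes
open Cfsg.Agent.H701.F43.Cent (hF cF nroots)
open Cfsg.Agent.H224.FR (EE mem_X cj_X EE_le)
open Cfsg.Agent.H446.FC (rel X_add X_zero X_neg X_comm)

universe u

variable {K : Type u} [Field K]

/-- root elements -/
local notation "Xr" => Cfsg.Agent.H446.FC.X

theorem xc_eq {r : ℕ} (hr : r < 48) (t : K) : xc hF (vec chevF4 4 r) t = Xr r t :=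
  Subtype.ext (coe_xc hF (by rw [nroots]; exact hr) t)

theorem tab : chevF4.commTerms 25 45 = [(46, 1, 1, 1)] ∧ chevF4.commTerms 25 46 = [] ∧ chevF4.commTerms 25 47 = [] ∧
    chevF4.commTerms 26 45 = [(47, 1, 1, 1)] ∧ chevF4.commTerms 26 46 = [] ∧ chevF4.commTerms 26 47 = [] ∧
    chevF4.commTerms 24 46 = [(47, 1, 1, 1)] ∧ chevF4.commTerms 24 47 = [] := by decide +kernel

theorem negtab : chevF4.neg 25 = 22 ∧ chevF4.neg 26 = 21 ∧ chevF4.neg 24 = 23 := by decide +kernel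

theorem rel_one {s r m : ℕ} (hs : s < 48) (hr : r < 48) (h1 : r ≠ s) (h2 : r ≠ chevF4.neg s)
    (h : chevF4.commTerms s r = [(m, 1, 1, 1)]) (u t : K) :
    (Xr s u)⁻¹ * Xr r t * Xr s u = Xr r t * Xr m (-u * t) := by
  rw [rel hs hr h1 h2, h, List.map_cons, List.map_nil, List.prod_cons, List.prod_nil, mul_one]
  simp

theorem rel_nil {s r : ℕ} (hs : s < 48) (hr : r < 48) (h1 : r ≠ s) (h2 : r ≠ chevF4.neg s)
    (h : chevF4.commTerms s r = []) (u t : K) : (Xr s u)⁻¹ * Xr r t * Xr s u = Xr r t := by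
  rw [rel hs hr h1 h2, h, List.map_nil, List.prod_nil, mul_one]

/-- the elements -/
noncomputable def e3 (a b c : K) : ↥(chevF4.group K) := Xr 45 a * Xr 46 b * Xr 47 c

theorem cm {r s : ℕ} (hr : r ∈ [45, 46, 47]) (hs : s ∈ [45, 46, 47]) (t u : K) : Xr r t * Xr s u = Xr s u * Xr r t := by
  have h : ∀ r ∈ [45, 46, 47], r ∈ Cfsg.Agent.H446.FC.L7 := by decide
  exact (X_comm (h r hr) (h s hs) t u).eq

theorem e3_mul (a b c a' b' c' : K) : e3 a b c * e3 a' b' c' = e3 (a + a') (b + b') (c + c') := by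
  unfold e3
  rw [X_add, X_add, X_add]
  have h1 := cm (K := K) (r := 47) (s := 45) (by simp) (by simp) c a'
  have h2 := cm (K := K) (r := 46) (s := 45) (by simp) (by simp) b a'
  have h3 := cm (K := K) (r := 47) (s := 46) (by simp) (by simp) c b'
  calc Xr 45 a * Xr 46 b * Xr 47 c * (Xr 45 a' * Xr 46 b' * Xr 47 c')
      = Xr 45 a * Xr 46 b * (Xr 47 c * Xr 45 a') * Xr 46 b' * Xr 47 c' := by group
    _ = Xr 45 a * (Xr 46 b * Xr 45 a') * (Xr 47 c * Xr 46 b') * Xr 47 c' := by rw [h1]; group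
    _ = _ := by rw [h2, h3]; group

theorem e3_zero : e3 (0 : K) 0 0 = 1 := by
  unfold e3
  rw [X_zero, X_zero, X_zero, mul_one, mul_one]

/-- the subgroup -/
def S3 (K : Type u) [Field K] : Subgroup ↥(chevF4.group K) where
  carrier := {g | ∃ a b c : K, g = e3 a b c}
  one_mem' := ⟨0, 0, 0, e3_zero.symm⟩
  mul_mem' := by
    rintro _ _ ⟨a, b, c, rfl⟩ ⟨a', b', c', rfl⟩
    exact ⟨_, _, _, e3_mul ..⟩
  inv_mem' := by
    rintro _ ⟨a, b, c, rfl⟩
    refine ⟨-a, -b, -c, ?_⟩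
    rw [inv_eq_iff_mul_eq_one, e3_mul, add_neg_cancel, add_neg_cancel, add_neg_cancel, e3_zero]

theorem mem_e3 {e : ↥(chevF4.group K)} (he : e ∈ EE K [45, 46, 47]) : ∃ a b c : K, e = e3 a b c := by
  have h : EE K [45, 46, 47] ≤ S3 K := by
    refine EE_le fun r hr => ?_
    intro y hy
    simp only [List.mem_cons, List.not_mem_nil, or_false] at hr
    rcases hr with rfl | rfl | rfl
    · obtain ⟨t, rfl⟩ := (mem_X (K := K) (by norm_num) y).1 hy
      exact ⟨t, 0, 0, by rw [xc_eq (by norm_num), e3, X_zero, X_zero, mul_one, mul_one]⟩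
    · obtain ⟨t, rfl⟩ := (mem_X (K := K) (by norm_num) y).1 hy
      exact ⟨0, t, 0, by rw [xc_eq (by norm_num), e3, X_zero, X_zero, mul_one, one_mul]⟩
    · obtain ⟨t, rfl⟩ := (mem_X (K := K) (by norm_num) y).1 hy
      exact ⟨0, 0, t, by rw [xc_eq (by norm_num), e3, X_zero, X_zero, mul_one, one_mul]⟩
  exact h he

theorem cj3 (g x y z : ↥(chevF4.group K)) : g⁻¹ * (x * y * z) * g = (g⁻¹ * x * g) * (g⁻¹ * y * g) * (g⁻¹ * z * g) := by
  group

theorem conj25 (a b c u : K) : (Xr 25 u)⁻¹ * e3 a b c * Xr 25 u = e3 a (b - u * a) c := by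
  obtain ⟨h1, h2, h3, -⟩ := tab
  obtain ⟨n1, -⟩ := negtab
  unfold e3
  rw [cj3, rel_one (by norm_num) (by norm_num) (by norm_num) (by rw [n1]; norm_num) h1,
    rel_nil (by norm_num) (by norm_num) (by norm_num) (by rw [n1]; norm_num) h2,
    rel_nil (by norm_num) (by norm_num) (by norm_num) (by rw [n1]; norm_num) h3, mul_assoc (Xr 45 a), ← X_add]
  congr 3
  ring

theorem conj26 (a b c u : K) : (Xr 26 u)⁻¹ * e3 a b c * Xr 26 u = e3 a b (c - u * a) := by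
  obtain ⟨-, -, -, h1, h2, h3, -⟩ := tab
  obtain ⟨-, n1, -⟩ := negtab
  unfold e3
  rw [cj3, rel_one (by norm_num) (by norm_num) (by norm_num) (by rw [n1]; norm_num) h1,
    rel_nil (by norm_num) (by norm_num) (by norm_num) (by rw [n1]; norm_num) h2,
    rel_nil (by norm_num) (by norm_num) (by norm_num) (by rw [n1]; norm_num) h3]
  have h4 := cm (K := K) (r := 47) (s := 46) (by simp) (by simp) (-u * a) b
  calc Xr 45 a * Xr 47 (-u * a) * Xr 46 b * Xr 47 c = Xr 45 a * (Xr 47 (-u * a) * Xr 46 b) * Xr 47 c := by group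
    _ = Xr 45 a * Xr 46 b * (Xr 47 (-u * a) * Xr 47 c) := by rw [h4]; group
    _ = _ := by rw [← X_add]; congr 2; ring

theorem conj24 (b c u : K) : (Xr 24 u)⁻¹ * e3 0 b c * Xr 24 u = e3 0 b (c - u * b) := by
  obtain ⟨-, -, -, -, -, -, h1, h2⟩ := tab
  obtain ⟨-, -, n1⟩ := negtab
  unfold e3
  rw [X_zero, cj3, rel_one (by norm_num) (by norm_num) (by norm_num) (by rw [n1]; norm_num) h1,
    rel_nil (by norm_num) (by norm_num) (by norm_num) (by rw [n1]; norm_num) h2]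
  calc (Xr 24 u)⁻¹ * 1 * Xr 24 u * (Xr 46 b * Xr 47 (-u * b)) * Xr 47 c = Xr 46 b * (Xr 47 (-u * b) * Xr 47 c) := by group
    _ = _ := by rw [← X_add, one_mul]; congr 2; ring

/-- reduction to one root group -/
theorem exists_one {e : ↥(chevF4.group K)} (he : e ∈ EE K [45, 46, 47]) :
    ∃ x : ↥(chevF4.group K), ∃ r ∈ [45, 46, 47], ∃ t : K, x * e * x⁻¹ = Xr r t := by
  obtain ⟨a, b, c, rfl⟩ := mem_e3 he
  by_cases ha : a = 0
  · subst ha
    by_cases hb : b = 0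
    · subst hb
      exact ⟨1, 47, by simp, c, by rw [e3, X_zero, X_zero]; group⟩
    · refine ⟨(Xr 24 (c / b))⁻¹, 46, by simp, b, ?_⟩
      rw [inv_inv, conj24, div_mul_cancel₀ _ hb, sub_self, e3, X_zero, X_zero, one_mul, mul_one]
  · refine ⟨(Xr 26 (c / a))⁻¹ * (Xr 25 (b / a))⁻¹, 45, by simp, a, ?_⟩
    rw [mul_inv_rev, inv_inv, inv_inv]
    have h1 := conj25 a b c (b / a)
    rw [div_mul_cancel₀ _ ha, sub_self] at h1
    have h2 := conj26 a 0 c (c / a)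
    rw [div_mul_cancel₀ _ ha, sub_self] at h2
    calc (Xr 26 (c / a))⁻¹ * (Xr 25 (b / a))⁻¹ * e3 a b c * (Xr 25 (b / a) * Xr 26 (c / a))
        = (Xr 26 (c / a))⁻¹ * ((Xr 25 (b / a))⁻¹ * e3 a b c * Xr 25 (b / a)) * Xr 26 (c / a) := by group
      _ = e3 a 0 0 := by rw [h1, h2]
      _ = Xr 45 a := by rw [e3, X_zero, X_zero, mul_one, mul_one]

theorem wtab : wact chevF4 ([3] : List (Fin 4)) 46 = 47 ∧ wact chevF4 ([3, 2] : List (Fin 4)) 45 = 47 ∧
    wact chevF4 ([] : List (Fin 4)) 47 = 47 := by decide +kernel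

/-- **the elements of `⟨X₄₅, X₄₆, X₄₇⟩` are long root elements** -/
theorem lng_E3 [Finite K] {e : ↥(chevF4.group K)} (he : e ∈ EE K [45, 46, 47]) (he1 : e ≠ 1) :
    ∃ x : ↥(chevF4.group K), ∃ c : K, c ≠ 0 ∧ x * e * x⁻¹ = xc hF (vec chevF4 4 47) c := by
  obtain ⟨p, hpc⟩ := CharP.exists K
  have : Fact p.Prime := ⟨CharP.char_is_prime K p⟩
  obtain ⟨x, r, hr, t, hx⟩ := exists_one he
  have hw : ∃ ω : List (Fin 4), wact chevF4 ω r = 47 := by
    obtain ⟨w1, w2, w3⟩ := wtab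
    simp only [List.mem_cons, List.not_mem_nil, or_false] at hr
    rcases hr with rfl | rfl | rfl
    · exact ⟨_, w2⟩
    · exact ⟨_, w1⟩
    · exact ⟨_, w3⟩
  have hr48 : r < 48 := by
    simp only [List.mem_cons, List.not_mem_nil, or_false] at hr
    omega
  obtain ⟨ω, hω⟩ := hw
  obtain ⟨g, hg⟩ := exists_rp cF (rgd (K := K) hF cF p).nsys (cF.wordProd ω)
  have h1 : g * Xr r t * g⁻¹ ∈ cj g (Cfsg.Agent.H224.FR.X K r) :=
    ⟨Xr r t, (mem_X hr48 _).2 ⟨t, (xc_eq hr48 t).symm⟩, rfl⟩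
  rw [cj_X p hg hr48, hω] at h1
  obtain ⟨c, hc⟩ := (mem_X (by norm_num) _).1 h1
  refine ⟨g * x, c, ?_, ?_⟩
  · rintro rfl
    rw [xc_eq (by norm_num), X_zero, ← hx] at hc
    apply he1
    have h2 : (g * x) * e * (g * x)⁻¹ = 1 := by rw [← hc]; group
    have h3 : e = (g * x)⁻¹ * ((g * x) * e * (g * x)⁻¹) * (g * x) := by group
    rw [h3, h2]
    group
  · rw [← hc, ← hx]
    group

end Cfsg.Agent.H994.FR
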